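import Mathlib

/-!
# The prime graph of `PSp₆(3)`, as a property of a group (helper93)
-/

set_option autoImplicit false

namespace Cfsg.Agent.Lib.Helper93.S63

/-- having the prime graph of `PSp₆(3)`: vertices 2, 3, 5, 7, 13, edges 2-3, 2-5, 2-7, 3-5 -/
def Good (G : Type*) [Group G] : Prop :=
  (∀ p : ℕ, p.Prime → (p ∣ Nat.card G ↔ p = 2 ∨ p = 3 ∨ p = 5 ∨ p = 7 ∨ p = 13)) ∧
  (∀ m ∈ [6, 10, 14, 15], ∃ g : G, orderOf g = m) ∧
  (∀ m ∈ [21, 35, 39, 65, 91, 26], ∀ g : G, orderOf g ≠ m)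

theorem Good.adj {G : Type*} [Group G] (h : Good G) (p q : ℕ) (hp : p.Prime)
    (hq : q.Prime) (hpq : p ≠ q) :
    (∃ g : G, orderOf g = p * q) ↔ (p * q = 6 ∨ p * q = 10 ∨ p * q = 14 ∨ p * q = 15) := by
  constructor
  · rintro ⟨g, hg⟩
    have hp' := (h.1 p hp).mp ((Dvd.intro _ hg.symm).trans (orderOf_dvd_natCard g))
    have hq' := (h.1 q hq).mp ((Dvd.intro_left _ hg.symm).trans (orderOf_dvd_natCard g))
    rcases hp' with rfl | rfl | rfl | rfl | rfl <;> rcases hq' with rfl | rfl | rfl | rfl | rfl <;>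
      first
      | exact absurd rfl hpq
      | decide
      | exact absurd hg (h.2.2 _ (by decide) g)
  · rintro (e | e | e | e) <;> rw [e]
    · exact h.2.1 6 (by decide)
    · exact h.2.1 10 (by decide)
    · exact h.2.1 14 (by decide)
    · exact h.2.1 15 (by decide)

theorem Good.same {G H : Type*} [Group G] [Group H] (hG : Good G) (hH : Good H) :
    (∀ p : ℕ, p.Prime → (p ∣ Nat.card G ↔ p ∣ Nat.card H)) ∧
    (∀ p q : ℕ, p.Prime → q.Prime → p ≠ q →
      ((∃ g : G, orderOf g = p * q) ↔ (∃ g : H, orderOf g = p * q))) :=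
  ⟨fun p hp => (hG.1 p hp).trans (hH.1 p hp).symm,
    fun p q hp hq hpq => (hG.adj p q hp hq hpq).trans (hH.adj p q hp hq hpq).symm⟩

end Cfsg.Agent.Lib.Helper93.S63
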